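import Cfsg.Agent.Lib.Spor.Fi24.Defs

set_option autoImplicit false
set_option maxRecDepth 100000
set_option Elab.async false
set_option exponentiation.threshold 100000

namespace Cfsg.Agent.Spor.Fi24
open Cfsg.Agent.PG

theorem tsq_0_9 : chkOn A 19 9 1 (tsq_l) = true := by decide +kernel

theorem tsq_0_10 : chkOn A 19 10 1 (tsq_l) = true := by decide +kernel

theorem tsq_0_11 : chkOn A 19 11 1 (tsq_l) = true := by decide +kernel

theorem tsq_0_12 : chkOn A 19 12 1 (tsq_l) = true := by decide +kernel

theorem tsq_0_13 : chkOn A 19 13 1 (tsq_l) = true := by decide +kernel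

theorem tsq_0_14 : chkOn A 19 14 1 (tsq_l) = true := by decide +kernel

theorem tsq_0_15 : chkOn A 19 15 1 (tsq_l) = true := by decide +kernel

theorem tsq_0_16 : chkOn A 19 16 1 (tsq_l) = true := by decide +kernel

theorem tsq_0_17 : chkOn A 19 17 1 (tsq_l) = true := by decide +kernel

theorem tsq_0_18 : chkOn A 19 18 1 (tsq_l) = true := by decide +kernel

theorem tne : pp A td ≠ 1 := ne_one_of_not_mapsB hA (a := 31672) (by decide +kernel)

theorem tnorm_0_0 : chkOn A 19 0 1 (tnorm_l) = true := by decide +kernel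

theorem tnorm_0_1 : chkOn A 19 1 1 (tnorm_l) = true := by decide +kernel

theorem tnorm_0_2 : chkOn A 19 2 1 (tnorm_l) = true := by decide +kernel

theorem tnorm_0_3 : chkOn A 19 3 1 (tnorm_l) = true := by decide +kernel

theorem tnorm_0_4 : chkOn A 19 4 1 (tnorm_l) = true := by decide +kernel

theorem tnorm_0_5 : chkOn A 19 5 1 (tnorm_l) = true := by decide +kernel

theorem tnorm_0_6 : chkOn A 19 6 1 (tnorm_l) = true := by decide +kernel

theorem tnorm_0_7 : chkOn A 19 7 1 (tnorm_l) = true := by decide +kernel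

theorem tnorm_0_8 : chkOn A 19 8 1 (tnorm_l) = true := by decide +kernel

theorem tnorm_0_9 : chkOn A 19 9 1 (tnorm_l) = true := by decide +kernel

theorem tnorm_0_10 : chkOn A 19 10 1 (tnorm_l) = true := by decide +kernel

theorem tnorm_0_11 : chkOn A 19 11 1 (tnorm_l) = true := by decide +kernel

theorem tnorm_0_12 : chkOn A 19 12 1 (tnorm_l) = true := by decide +kernel

theorem tnorm_0_13 : chkOn A 19 13 1 (tnorm_l) = true := by decide +kernel

theorem tnorm_0_14 : chkOn A 19 14 1 (tnorm_l) = true := by decide +kernel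

theorem tnorm_0_15 : chkOn A 19 15 1 (tnorm_l) = true := by decide +kernel

theorem tnorm_0_16 : chkOn A 19 16 1 (tnorm_l) = true := by decide +kernel

theorem tnorm_0_17 : chkOn A 19 17 1 (tnorm_l) = true := by decide +kernel

theorem tnorm_0_18 : chkOn A 19 18 1 (tnorm_l) = true := by decide +kernel

theorem dfix : allL [31671, 25121, 584, 2853, 7709, 9504, 11293, 550, 31254, 0] (fun b => mapsB A td b b) = true := by decide +kernel

theorem dnc : andB (mapsB A (gw 2 :: td) 0 147407) (Bool.not (mapsB A (td ++ [gw 2]) 0 147407)) = true := by decide +kernel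


end Cfsg.Agent.Spor.Fi24
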