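import Cfsg.Agent.Lib.PG.Gen
import Cfsg.Agent.Lib.Spor.Fi24.N0
import Cfsg.Agent.Lib.Spor.Fi24.N1
import Cfsg.Agent.Lib.Spor.Fi24.N2
import Cfsg.Agent.Lib.Spor.Fi24.N3
import Cfsg.Agent.Lib.Spor.Fi24.N4
import Cfsg.Agent.Lib.Spor.Fi24.N5
import Cfsg.Agent.Lib.Spor.Glue2

set_option autoImplicit false
set_option maxRecDepth 100000
set_option Elab.async false
set_option exponentiation.threshold 100000

namespace Cfsg.Agent.Spor.Fi24
open Cfsg.Agent.PG

noncomputable def A : List Net := [n0, n1, n2, n3, n4, n5, n6, n7, n8, n9, n10, n11, n12]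

theorem hA : okA (2 ^ 19) A = true := by decide +kernel

theorem hlen : A.length = 13 := rfl


end Cfsg.Agent.Spor.Fi24
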